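import Cfsg.Agent.Lib.KC.R9.Sv

set_option autoImplicit false
set_option maxRecDepth 100000
set_option Elab.async false

namespace Cfsg.Agent.KC.T9

theorem p2_0 : Part 2 0 := by unfold Part; decide +kernel

end Cfsg.Agent.KC.T9
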