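import Cfsg.Agent.Lib.KC.R9.P0
import Cfsg.Agent.Lib.KC.R9.P1
import Cfsg.Agent.Lib.KC.R9.P2
import Cfsg.Agent.Lib.KC.R9.P3
import Cfsg.Agent.Lib.KC.R9.P4
import Cfsg.Agent.Lib.KC.R9.P5
import Cfsg.Agent.Lib.KC.R9.P6
import Cfsg.Agent.Lib.KC.R9.P7

set_option autoImplicit false
set_option maxRecDepth 100000

namespace Cfsg.Agent.KC.T9

theorem q0 : ∀ j < 2, Part 0 j := by
  intro j hj
  interval_cases j
  exacts [p0_0, p0_1]

theorem q1 : ∀ j < 2, Part 1 j := by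
  intro j hj
  interval_cases j
  exacts [p1_0, p1_1]

theorem q2 : ∀ j < 2, Part 2 j := by
  intro j hj
  interval_cases j
  exacts [p2_0, p2_1]

theorem q3 : ∀ j < 2, Part 3 j := by
  intro j hj
  interval_cases j
  exacts [p3_0, p3_1]

theorem mem {g : ℕ} {L : List En} (A : Ax 8 g L) (F : Lf g L) : (g, L) ∈ sv := by
  refine mem_sv (N := 4) (N' := 2) (n := 11) tab (by decide) (by decide) ?_ A (ord A) F
  intro i hi
  interval_cases i
  exacts [q0, q1, q2, q3]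

end Cfsg.Agent.KC.T9
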